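import Cfsg.Agent.H883.Sub

/-!
General lemmas on nondegenerate quadratic spaces of dimension at least seven over a finite field: a third
hyperbolic pair, transitivity on totally singular pairs, alternating forms vanishing on totally singular
pairs, two hyperplanes do not contain all singular vectors.
-/

set_option autoImplicit false

namespace Cfsg.Agent.H916.QuadLemmas

open QuadraticMap Cfsg.Agent.LieClassical.OrthCore Cfsg.Agent.LieClassical.OrthTrans
  Cfsg.Agent.LieClassical.OrthFinite Cfsg.Agent.H883.Bridge Cfsg.Agent.H883.Root Cfsg.Agent.H883.Sub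

variable {K V : Type*} [Field K] [AddCommGroup V] [Module K V] {Q : QuadraticForm K V}

/-! ### The complement of a hyperbolic pair -/

/-- The orthogonal complement of `x` and `y`. -/
def cp (Q : QuadraticForm K V) (x y : V) : Submodule K V := perp Q (Submodule.span K {x, y})

theorem mem_cp {x y v : V} : v ∈ cp Q x y ↔ polar Q x v = 0 ∧ polar Q y v = 0 := by
  rw [cp, mem_perp]
  constructor
  · intro h
    exact ⟨h x (Submodule.subset_span (by simp)), h y (Submodule.subset_span (by simp))⟩
  · rintro ⟨h1, h2⟩ w hw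
    rw [Submodule.mem_span_pair] at hw
    obtain ⟨a, b, rfl⟩ := hw
    rw [polar_add_left, polar_smul_left, polar_smul_left, h1, h2]
    simp

theorem nondegOn_cp (hQ : Nondeg Q) {x y : V} (h : Hyp Q x y) : NondegOn Q (cp Q x y) := by
  intro v hv hv'
  apply hQ
  intro z
  rw [mem_cp] at hv
  have h1 := hv' (proj Q x y z) (mem_cp.2 ⟨polar_proj_left h z, polar_proj_right h z⟩)
  rwa [polar_proj_of_perp hv.1 hv.2] at h1

theorem finrank_cp [FiniteDimensional K V] (hQ : Nondeg Q) (x y : V) :
    Module.finrank K V ≤ Module.finrank K (cp Q x y) + 2 := by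
  classical
  have h1 := finrank_perp hQ (Submodule.span K {x, y})
  have h2 : Module.finrank K (Submodule.span K ({x, y} : Set V)) ≤ 2 := by
    have h3 := finrank_span_finset_le_card (R := K) ({x, y} : Finset V)
    have h4 : ({x, y} : Finset V).card ≤ 2 := Finset.card_le_two
    rw [Set.finrank] at h3
    rw [Finset.coe_pair] at h3
    omega
  rw [cp]
  omega

theorem proj_mem_cp {x y : V} (h : Hyp Q x y) (v : V) : proj Q x y v ∈ cp Q x y :=
  mem_cp.2 ⟨polar_proj_left h v, polar_proj_right h v⟩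

/-! ### Three hyperbolic pairs -/

/-- A third hyperbolic pair. -/
theorem exists_hyp3 [Finite K] (hQ : Nondeg Q) (hd : 7 ≤ Module.finrank K V) {x y z w : V}
    (h : Hyp Q x y) (h' : Hyp Q z w) (hxz : polar Q x z = 0) (hxw : polar Q x w = 0)
    (hyz : polar Q y z = 0) (hyw : polar Q y w = 0) :
    ∃ a b, Hyp Q a b ∧ (polar Q x a = 0 ∧ polar Q y a = 0 ∧ polar Q z a = 0 ∧ polar Q w a = 0) ∧
      (polar Q x b = 0 ∧ polar Q y b = 0 ∧ polar Q z b = 0 ∧ polar Q w b = 0) := by
  obtain ⟨a, ha0, ha, hp⟩ := exists_sing_perp (Q := Q) ![x, y, z, w] (by omega)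
  have hxa : polar Q x a = 0 := hp 0
  have hya : polar Q y a = 0 := hp 1
  have hza : polar Q z a = 0 := hp 2
  have hwa : polar Q w a = 0 := hp 3
  obtain ⟨c, hc⟩ := hQ.exists_polar_eq ha0 1
  set c' := proj Q x y (proj Q z w c) with hc'
  have h1 : polar Q a c' = 1 := by
    rw [hc', polar_proj_of_perp hxa hya, polar_proj_of_perp hza hwa, hc]
  have h2 : polar Q x c' = 0 := polar_proj_left h _
  have h3 : polar Q y c' = 0 := polar_proj_right h _
  have h4 : polar Q z c' = 0 := by rw [hc', polar_proj_of_perp hxz hyz, polar_proj_left h']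
  have h5 : polar Q w c' = 0 := by rw [hc', polar_proj_of_perp hxw hyw, polar_proj_right h']
  refine ⟨a, c' + (-Q c') • a, ⟨ha, ?_, ?_⟩, ⟨hxa, hya, hza, hwa⟩, ?_, ?_, ?_, ?_⟩
  · rw [Q_add, QuadraticMap.map_smul, ha, polar_smul_right, polar_comm Q c' a, h1]
    simp
  · rw [polar_add_right, polar_smul_right, polar_self_of_sing ha, h1]
    simp
  · rw [polar_add_right, polar_smul_right, h2, hxa]; simp
  · rw [polar_add_right, polar_smul_right, h3, hya]; simp
  · rw [polar_add_right, polar_smul_right, h4, hza]; simp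
  · rw [polar_add_right, polar_smul_right, h5, hwa]; simp

/-- The component of `w` orthogonal to a partner `u'` of the singular vector `u ⊥ w`. -/
theorem adjust {u u' w : V} (h : Hyp Q u u') (hw : Q w = 0) (huw : polar Q u w = 0)
    (hind : ∀ c : K, w ≠ c • u) :
    Q (w - polar Q u' w • u) = 0 ∧ polar Q u (w - polar Q u' w • u) = 0 ∧
      polar Q u' (w - polar Q u' w • u) = 0 ∧ w - polar Q u' w • u ≠ 0 := by
  refine ⟨?_, ?_, ?_, ?_⟩
  · rw [sub_eq_add_neg, ← neg_smul, Q_add, QuadraticMap.map_smul, hw, h.left, polar_smul_right,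
      polar_comm Q w u, huw]
    simp
  · rw [polar_sub_right, polar_smul_right, huw, h.polar_left]
    simp
  · rw [polar_sub_right, polar_smul_right, h.pair']
    simp
  · intro h0
    exact hind _ (sub_eq_zero.1 h0)

/-- A hyperbolic pair orthogonal to a totally singular pair. -/
theorem exists_hyp_of_root [Finite K] (hQ : Nondeg Q) (hd : 7 ≤ Module.finrank K V) {u w : V}
    (hu : Q u = 0) (hw : Q w = 0) (huw : polar Q u w = 0) (hu0 : u ≠ 0)
    (hind : ∀ c : K, w ≠ c • u) :
    ∃ a b, Hyp Q a b ∧ polar Q u a = 0 ∧ polar Q u b = 0 ∧ polar Q w a = 0 ∧ polar Q w b = 0 := by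
  obtain ⟨u', hu'⟩ := exists_hyp hQ hu hu0
  obtain ⟨h1, h2, h3, h4⟩ := adjust hu' hw huw hind
  set w1 := w - polar Q u' w • u with hw1
  obtain ⟨w', hw', h5, h6⟩ := exists_hyp_perp hQ hu' h1 h4 h2 h3
  obtain ⟨a, b, hab, ⟨k1, -, k3, -⟩, ⟨k5, -, k7, -⟩⟩ := exists_hyp3 hQ hd hu' hw' h2 h5 h3 h6
  have e : w = w1 + polar Q u' w • u := by rw [hw1]; abel
  refine ⟨a, b, hab, k1, k5, ?_, ?_⟩
  · rw [e, polar_add_left, polar_smul_left, k3, k1]; simp
  · rw [e, polar_add_left, polar_smul_left, k7, k5]; simp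

/-- `E Q` is transitive on totally singular pairs, modulo multiples of the first vector. -/
theorem trans_root [Finite K] (hG : Good Q) (hd : 7 ≤ Module.finrank K V)
    {u w x y : V} (hu : Q u = 0) (hw : Q w = 0) (huw : polar Q u w = 0) (hu0 : u ≠ 0)
    (hind : ∀ c : K, w ≠ c • u) (hx : Q x = 0) (hy : Q y = 0) (hxy : polar Q x y = 0) (hx0 : x ≠ 0)
    (hind' : ∀ c : K, y ≠ c • x) : ∃ g ∈ E Q, g u = x ∧ ∃ c : K, g w = y + c • x := by
  have : FiniteDimensional K V := Module.finite_of_finrank_pos (by omega)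
  obtain ⟨u', hu'⟩ := exists_hyp hG.nondeg hu hu0
  obtain ⟨x', hx'⟩ := exists_hyp hG.nondeg hx hx0
  obtain ⟨g1, hg1, e1, e2⟩ := hG.trans_hyp hu' hx'
  have hgO := E_le_O hg1
  have k1 : Q (g1 w) = 0 := by rw [mem_O.1 hgO]; exact hw
  have k2 : polar Q x (g1 w) = 0 := by rw [← e1, polar_map hgO]; exact huw
  have k3 : ∀ c : K, g1 w ≠ c • x := by
    intro c hc
    apply hind c
    apply g1.injective
    rw [hc, map_smul, e1]
  obtain ⟨a1, a2, a3, a4⟩ := adjust hx' k1 k2 k3
  obtain ⟨b1, b2, b3, b4⟩ := adjust hx' hy hxy hind'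
  have hGY : Good (res Q (cp Q x x')) :=
    good_res (nondegOn_cp hG.nondeg hx') (by have := finrank_cp hG.nondeg x x'; omega)
  obtain ⟨g2, hg2, e3⟩ := EY_trans_sing hGY (mem_cp.2 ⟨a2, a3⟩) (mem_cp.2 ⟨b2, b3⟩) a1 b1 a4 b4
  have e4 : g2 x = x := EY_fix hg2 fun v hv => by
    rw [polar_comm]; exact (mem_cp.1 hv).1
  refine ⟨g2 * g1, E_mul (EY_le_E hg2) hg1, ?_, polar Q x' (g1 w) - polar Q x' y, ?_⟩
  · show g2 (g1 u) = x
    rw [e1, e4]
  · show g2 (g1 w) = _
    have e5 : g1 w = (g1 w - polar Q x' (g1 w) • x) + polar Q x' (g1 w) • x := by abel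
    rw [e5, map_add, e3, map_smul, e4, ← e5]
    module

/-! ### Spanning by totally singular pairs -/

/-- A bilinear property at singular vectors orthogonal to `u` holds at all vectors orthogonal to `u`. -/
theorem perp_induction (hG : Good Q) {u : V} (hu : Q u = 0) (hu0 : u ≠ 0) {P : V → Prop}
    (hadd : ∀ a c, P a → P c → P (a + c)) (hself : ∀ c : K, P (c • u))
    (hsing : ∀ a, Q a = 0 → polar Q u a = 0 → P a) {v : V} (hv : polar Q u v = 0) : P v := by
  obtain ⟨u', hyp⟩ := exists_hyp hG.nondeg hu hu0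
  obtain ⟨z, z', hz, huz, huz', hu'z, hu'z'⟩ := hG.exists_hyp2 hyp
  have e : v = Cfsg.Agent.LieClassical.OrthTrans.proj Q u u' v + (polar Q u' v) • u := by
    rw [Cfsg.Agent.LieClassical.OrthTrans.proj, hv]; module
  rw [e]
  refine hadd _ _ ?_ (hself _)
  exact sing_induction_perp hz huz huz' hu'z hu'z' (P := P)
    (fun a c _ _ _ _ ha hc => hadd a c ha hc) (fun a ha h1 _ => hsing a ha h1) _
    (polar_proj_left hyp v) (polar_proj_right hyp v)

/-- **An alternating bilinear form vanishing on all totally singular pairs is zero** (odd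
characteristic). -/
theorem alt_eq_zero (hG : Good Q) (h2 : (2 : K) ≠ 0) (φ : V →ₗ[K] V →ₗ[K] K)
    (halt : ∀ v, φ v v = 0) (hφ : ∀ u w, Q u = 0 → Q w = 0 → polar Q u w = 0 → φ u w = 0) :
    ∀ u w, φ u w = 0 := by
  have hskew : ∀ u w, φ u w = -φ w u := by
    intro u w
    have h := halt (u + w)
    rw [map_add, map_add, LinearMap.add_apply, LinearMap.add_apply, halt, halt] at h
    linear_combination h
  -- step 1
  have s1 : ∀ u, Q u = 0 → ∀ w, polar Q u w = 0 → φ u w = 0 := by
    intro u hu w hw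
    by_cases hu0 : u = 0
    · rw [hu0, map_zero, LinearMap.zero_apply]
    exact perp_induction hG hu hu0 (P := fun v => φ u v = 0)
      (fun a c ha hc => by rw [map_add, ha, hc, add_zero])
      (fun c => by rw [map_smul, halt, smul_zero]) (fun a ha h1 => hφ u a hu ha h1) hw
  -- step 2
  have s2 : ∀ u u', Hyp Q u u' → ∀ v, φ u v = polar Q u v * φ u u' := by
    intro u u' h v
    have h1 := s1 u h.left (v - polar Q u v • u') (by
      rw [polar_sub_right, polar_smul_right, h.pair]; simp)
    rw [map_sub, map_smul, smul_eq_mul] at h1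
    linear_combination h1
  -- step 3
  have s3 : ∀ u u', Hyp Q u u' → φ u u' = 0 := by
    intro u u' h
    obtain ⟨z, z', hz, h1, h2', h3, h4⟩ := hG.exists_hyp2 h
    -- the vector `z + z'` has norm one
    set n : V := z + z' with hn
    have hQn : Q n = 1 := by
      rw [hn, Q_add, hz.left, hz.right, hz.pair]; simp
    have hun : polar Q u n = 0 := by rw [hn, polar_add_right, h1, h2', add_zero]
    have hu'n : polar Q u' n = 0 := by rw [hn, polar_add_right, h3, h4, add_zero]
    set s : V := u + n - Q n • u' with hs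
    have hQs : Q s = 0 := sing_vec h hun hu'n
    have hsu' : polar Q s u' = 1 := by
      rw [hs, polar_sub_left, polar_add_left, polar_smul_left, h.pair, h.polar_right,
        polar_comm Q n u', hu'n]
      simp
    have hsu : polar Q s u = -1 := by
      rw [hs, polar_sub_left, polar_add_left, polar_smul_left, h.polar_left, h.pair',
        polar_comm Q n u, hun, hQn]
      simp
    have hsyp : Hyp Q s u' := ⟨hQs, h.right, hsu'⟩
    have e1 := s2 s u' hsyp u
    rw [hsu] at e1
    have e2 := s2 u u' h s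
    rw [polar_comm, hsu] at e2
    have e3 := hskew s u
    have e4 := s2 u' u h.symm s
    rw [polar_comm, hsu'] at e4
    have e5 := hskew u' s
    have e6 := hskew u u'
    -- `φ s u = - φ s u'`, `φ u s = - φ u u'`, `φ u' s = φ u' u`
    have e7 : 2 * φ u u' = 0 := by
      linear_combination e1 + e2 - e3 + e6 + e4 - e5
    exact (mul_eq_zero.1 e7).resolve_left h2
  obtain ⟨x, y, hxy⟩ := hG.exists_hyp
  intro u w
  refine sing_induction hxy (P := fun v => φ v w = 0) (fun a c ha hc => ?_) (fun a ha => ?_) u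
  · rw [map_add, LinearMap.add_apply, ha, hc, add_zero]
  · by_cases ha0 : a = 0
    · rw [ha0, map_zero, LinearMap.zero_apply]
    obtain ⟨a', ha'⟩ := exists_hyp hG.nondeg ha ha0
    rw [s2 a a' ha', s3 a a' ha', mul_zero]

/-- **Two hyperplanes do not contain all singular vectors.** -/
theorem two_hyperplanes (hG : Good Q) (α β : V →ₗ[K] K) (h : ∀ v, Q v = 0 → α v * β v = 0) :
    α = 0 ∨ β = 0 := by
  obtain ⟨x, y, hxy⟩ := hG.exists_hyp
  have key : ∀ γ : V →ₗ[K] K, γ ≠ 0 → ∃ a, Q a = 0 ∧ γ a ≠ 0 := by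
    intro γ hγ
    by_contra hcon
    push Not at hcon
    apply hγ
    ext v
    exact sing_induction hxy (P := fun v => γ v = 0)
      (fun a c ha hc => by rw [map_add, ha, hc, add_zero]) hcon v
  by_contra hcon
  push Not at hcon
  obtain ⟨a, ha, ha'⟩ := key α hcon.1
  obtain ⟨b, hb, hb'⟩ := key β hcon.2
  have hβa : β a = 0 := (mul_eq_zero.1 (h a ha)).resolve_left ha'
  have hαb : α b = 0 := (mul_eq_zero.1 (h b hb)).resolve_right hb'
  by_cases hab : polar Q a b = 0
  · have h1 := h (a + b) (by rw [Q_add, ha, hb, hab]; simp)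
    rw [map_add, map_add, hβa, hαb, add_zero, zero_add] at h1
    exact (mul_ne_zero ha' hb') h1
  · set c := polar Q a b with hc
    have hyp : Hyp Q a (c⁻¹ • b) := by
      refine ⟨ha, ?_, ?_⟩
      · rw [QuadraticMap.map_smul, hb, smul_zero]
      · rw [polar_smul_right, ← hc, smul_eq_mul, inv_mul_cancel₀ hab]
    have hz : ∀ z, Q z = 0 → polar Q a z = 0 → polar Q (c⁻¹ • b) z = 0 → α z = 0 ∧ β z = 0 := by
      intro z hz1 hz2 hz3
      have hz4 : polar Q b z = 0 := by
        rw [polar_smul_left, smul_eq_mul] at hz3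
        exact (mul_eq_zero.1 hz3).resolve_left (inv_ne_zero hab)
      have h1 := h z hz1
      have h2 := h (a + z) (by rw [Q_add, ha, hz1, hz2]; simp)
      have h3 := h (b + z) (by rw [Q_add, hb, hz1, hz4]; simp)
      rw [map_add, map_add, hβa, zero_add] at h2
      rw [map_add, map_add, hαb, zero_add] at h3
      have h4 : α a * β z = 0 := by linear_combination h2 - h1
      have h5 : α z * β b = 0 := by linear_combination h3 - h1
      exact ⟨(mul_eq_zero.1 h5).resolve_right hb', (mul_eq_zero.1 h4).resolve_left ha'⟩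
    obtain ⟨z, z', hzz, k1, k2, k3, k4⟩ := hG.exists_hyp2 hyp
    have hn : α (z + z') = 0 ∧ β (z + z') = 0 := by
      obtain ⟨m1, m2⟩ := hz z hzz.left k1 k3
      obtain ⟨m3, m4⟩ := hz z' hzz.right k2 k4
      exact ⟨by rw [map_add, m1, m3, add_zero], by rw [map_add, m2, m4, add_zero]⟩
    have hQn : Q (z + z') = 1 := by rw [Q_add, hzz.left, hzz.right, hzz.pair]; simp
    have h1 := h (a + (z + z') - Q (z + z') • (c⁻¹ • b))
      (sing_vec hyp (by rw [polar_add_right, k1, k2, add_zero])
        (by rw [polar_add_right, k3, k4, add_zero]))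
    rw [hQn, one_smul, map_sub α, map_add α a, map_sub β, map_add β a, hn.1, hn.2, map_smul,
      map_smul, hαb, hβa] at h1
    simp only [mul_zero, add_zero, sub_zero, zero_sub, mul_neg, neg_eq_zero, smul_eq_mul] at h1
    exact (mul_ne_zero ha' (mul_ne_zero (inv_ne_zero hab) hb')) h1

end Cfsg.Agent.H916.QuadLemmas
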